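import Groth.Agent.RedSub.H638.OrbPull
import Groth.Agent.GrpQ.H776.Exist
import Groth.Agent.Flat2D.LfpComp
import Groth.Agent.S0114
import Groth.Agent.S0115
import Mathlib.CategoryTheory.Limits.Constructions.Over.Connected

/-!
# Quotients from morphisms separating the cosets

If `o : G ⟶ Y` (over `S`) has kernel pair `G × P ⇉ G`, then `G/P` exists and is a subfunctor of `Y`.
-/

set_option autoImplicit false
universe u
open CategoryTheory Limits MonoidalCategory CartesianMonoidalCategory MonObj GrpObj AlgebraicGeometry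

namespace Groth.Agent.RedSub.H638.ParQuot

open Groth.Agent.RedSub.H638.OrbPull

variable {S : Scheme.{u}} {G P : Over S} [GrpObj G] {p : P ⟶ G} {Y : Scheme.{u}} {o : G.left ⟶ Y}

/-- kernel pairs and monomorphisms -/
theorem isPullback_of_mono {C : Type*} [Category C] {X Z W K : C} {a b : K ⟶ X} {q : X ⟶ Z} {m : Z ⟶ W}
    [Mono m] (h : IsPullback a b (q ≫ m) (q ≫ m)) : IsPullback a b q q := by
  have w : a ≫ q = b ≫ q := by
    rw [← cancel_mono m, Category.assoc, Category.assoc, h.w]
  refine ⟨⟨w⟩, ⟨PullbackCone.IsLimit.mk w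
    (fun c => h.lift c.fst c.snd (by rw [← Category.assoc, c.condition, Category.assoc]))
    (fun c => h.lift_fst _ _ _) (fun c => h.lift_snd _ _ _) (fun c m h1 h2 => ?_)⟩⟩
  apply h.hom_ext
  · rw [h1, h.lift_fst]
  · rw [h2, h.lift_snd]

theorem exists_quotient {s : Y ⟶ S} (hs : o ≫ s = G.hom)
    (hpb : IsPullback (fst G P).left ((G ◁ p) ≫ μ[G]).left o o)
    [LocallyOfFinitePresentation G.hom] [LocallyOfFiniteType s] [Flat P.hom] :
    ∃ (Q : Over S) (q : G ⟶ Q) (m : Q.left ⟶ Y), Mono m ∧ q.left ≫ m = o ∧ m ≫ s = Q.hom ∧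
      RedSub.IsQuotient p q ∧ LocallyOfFinitePresentation Q.hom ∧ (Smooth G.hom → Smooth Q.hom) := by
  have h1 : LocallyOfFinitePresentation (o ≫ s) := by rw [hs]; infer_instance
  have h2 : LocallyOfFinitePresentation o := Flat2D.LfpComp.lfp_of_comp o s
  have h3 : Flat (fst G P).left := by
    rw [Over.fst_left]
    infer_instance
  have h4 : Flat (pullback.fst o o) := by
    have h := hpb.isoPullback_inv_fst
    rw [← h]
    infer_instance
  obtain ⟨Z, g, m, hg1, hg2, hg3, hm, hgm⟩ := Groth.Agent.GrpQ.H776.Exist.hasFact o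
  let Q : Over S := Over.mk (m ≫ s)
  let q : G ⟶ Q := Over.homMk g (by
    change g ≫ m ≫ s = G.hom
    rw [← Category.assoc, hgm, hs])
  have hq1 : Flat q.left := hg2
  have hq2 : Surjective q.left := hg1
  have hq3 : LocallyOfFinitePresentation q.left := hg3
  refine ⟨Q, q, m, hm, hgm, rfl, ⟨hq2, hq1, hq3, ?_⟩, ?_, fun h => ?_⟩
  · have h5 : IsPullback (fst G P).left ((G ◁ p) ≫ μ[G]).left q.left q.left := by
      apply isPullback_of_mono (m := m)
      change IsPullback _ _ (g ≫ m) (g ≫ m)
      rw [hgm]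
      exact hpb
    refine IsPullback.of_map (Over.forget S) ?_ h5
    ext1
    exact h5.w
  · have : LocallyOfFinitePresentation (q.left ≫ Q.hom) := by rw [Over.w]; infer_instance
    exact Groth.Agent.S0114.result q.left Q.hom
  · have : Smooth (q.left ≫ Q.hom) := by rw [Over.w]; exact h
    exact Groth.Agent.S0115.result q.left Q.hom

end Groth.Agent.RedSub.H638.ParQuot
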